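import Groth.Agent.Dual.H311.Trace
import Groth.Agent.Ega1.ADualOpen
import Groth.Agent.S1824
import Groth.Agent.LoccohB.AdStruct
import Groth.Agent.Sga67.PushTwistB

/-!
# `π^! O_Y ≅ O(-2)[1]` for `π : P^1_Y ⟶ Y`, `Y` Noetherian
-/

set_option autoImplicit false

universe u

open CategoryTheory CategoryTheory.Limits AlgebraicGeometry

attribute [local instance] HasDerivedCategory.standard

namespace Groth.Agent.Dual.H311.P1Dual

open Groth.Agent.Ega3A.PChart Groth.Agent.Ega1.ADualUniv Groth.Agent.Ega1.ADualOpen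
open Groth.Agent.PerfA.PerfLocal (restrictInD)
open Groth.Agent.PerfA.Restrict (restrictD)

variable (Y : Scheme.{u})

/-- The projection `P^1_Y ⟶ Y`. -/
local notation "π" => CohB1.ProjSpaceOver.toBase 1 Y

theorem isQCohD_twistOver (d : ℤ) : DCoh.IsQCohD (DCoh.inD _ (Twist.twistOver 1 Y d)) :=
  PerfA.QCohD.isQCohD_inD _ (Ega2.QCohLocal.isQCoh_of_isInvertible
    (Ega3B.ProjFrame.isInvertible_twistOver 1 d))

/-- Every point of `P^1_Y` is on a chart over an affine open of the base. -/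
theorem exists_chart (x : CohB1.ProjSpaceOver 1 Y) :
    ∃ (V : Y.Opens) (hV : IsAffineOpen V) (y : CohB1.ProjSpace 1 Γ(Y, V)),
      chart 1 hV.fromSpec y = x := by
  obtain ⟨V, hV, z, hz⟩ := Detect.exists_affine ((π) x)
  have h1 : (π) x ∈ V := by
    rw [← hz]
    have : hV.fromSpec z ∈ Set.range hV.fromSpec := ⟨z, rfl⟩
    rw [hV.range_fromSpec] at this
    exact this
  obtain ⟨y, hy⟩ := Sga67.PushTwist.le_range (r := 1) hV (show x ∈ (π) ⁻¹ᵁ V from h1)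
  exact ⟨V, hV, y, hy⟩

/-- Duality on a chart. -/
theorem univ_chart (A : Type u) [CommRing A] [DCoh.HasRpush (CohB1.ProjSpace.toSpec 1 A)] :
    Univ (CohB1.ProjSpace.toSpec 1 A) (DCoh.inD (Spec (CommRingCat.of A)) (Coh.structureModule _))
      ((DCoh.inD (CohB1.ProjSpace 1 A) (Twist.twistProjSpace 1 A (-2)))⟦(1 : ℤ)⟧) := by
  have hf : ∀ N : DCoh.D (CohB1.ProjSpace 1 A), DCoh.IsQCohD N →
      DCoh.IsQCohD ((DCoh.Rpush (CohB1.ProjSpace.toSpec 1 A)).obj N) :=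
    fun N hN => PushO.isQCohD_Rpush_toSpec A N hN
  have : IsProper (CohB1.ProjSpace.toSpec 1 A) := Ega3B.ProjProper.isProper_toSpec 1 A
  have : CompactSpace (CohB1.ProjSpace 1 A) :=
    QuasiCompact.compactSpace_of_compactSpace (CohB1.ProjSpace.toSpec 1 A)
  have : QuasiSeparatedSpace (CohB1.ProjSpace 1 A) :=
    quasiSeparatedSpace_of_quasiSeparated (CohB1.ProjSpace.toSpec 1 A)
  have := S1766.result _ _ (CohB1.ProjSpace.toSpec 1 A) hf
  let F : DCoh.DQCoh (CohB1.ProjSpace 1 A) ⥤ DCoh.DQCoh (Spec (CommRingCat.of A)) :=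
    ObjectProperty.lift DCoh.IsQCohD
      (ObjectProperty.ι DCoh.IsQCohD ⋙ DCoh.Rpush (CohB1.ProjSpace.toSpec 1 A))
      (fun K => hf K.obj K.property)
  let O : DCoh.DQCoh (Spec (CommRingCat.of A)) := ⟨DCoh.inD _ (Coh.structureModule _),
    PerfA.QCohD.isQCohD_inD _ (PerfA.QCohSerre.isQCoh_unit _)⟩
  obtain ⟨e⟩ := S1824.result 1 A hf F.rightAdjoint (Adjunction.ofIsLeftAdjoint F) O
    ⟨Iso.refl _⟩
  have h1 := univ_of_adj (f := CohB1.ProjSpace.toSpec 1 A) (h := hf)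
    (Adjunction.ofIsLeftAdjoint F) O
  exact h1.of_iso_left e (PerfA.QCohD.isQCohD_shift (PerfA.QCohD.isQCohD_inD _
    (PerfB.TwistDer.isQCoh_tw 1 A _)) _)

/-- Restriction of `O(-2)[1]` to a chart. -/
noncomputable def shiftTwistChart {V : Y.Opens} (hV : IsAffineOpen V) (d : ℤ) (n : ℤ) :
    (restrictD (chart 1 hV.fromSpec)).obj ((DCoh.inD _ (Twist.twistOver 1 Y d))⟦n⟧) ≅
      (DCoh.inD (CohB1.ProjSpace 1 Γ(Y, V)) (Twist.twistProjSpace 1 Γ(Y, V) d))⟦n⟧ :=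
  ((restrictD (chart 1 hV.fromSpec)).commShiftIso n).app _ ≪≫
    (shiftFunctor (DCoh.D _) n).mapIso (PushO.twistChart Y hV d)

/-- `π^! O_Y ≅ O(-2)[1]`. -/
theorem nonempty_iso_of_univ [IsNoetherian Y] [DCoh.HasRpush π]
    (L : DCoh.D (CohB1.ProjSpaceOver 1 Y))
    (h : Univ π (DCoh.inD Y (Coh.structureModule Y)) L) :
    Nonempty ((DCoh.inD _ (Twist.twistOver 1 Y (-2)))⟦(1 : ℤ)⟧ ≅ L) := by
  obtain ⟨τ, hτ⟩ := id h
  obtain ⟨tr⟩ := Trace.nonempty_trace Y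
  set N : DCoh.D (CohB1.ProjSpaceOver 1 Y) :=
    (DCoh.inD _ (Twist.twistOver 1 Y (-2)))⟦(1 : ℤ)⟧ with hN
  have hNq : DCoh.IsQCohD N := PerfA.QCohD.isQCohD_shift (isQCohD_twistOver Y _) _
  obtain ⟨φ, hφ⟩ := hτ.exists_lift hNq tr.hom
  have hO : (DCoh.inD Y (Coh.structureModule Y)).IsGE 0 := inferInstance
  have hOq : DCoh.IsQCohD (DCoh.inD Y (Coh.structureModule Y)) :=
    PerfA.QCohD.isQCohD_inD _ (PerfA.QCohSerre.isQCoh_unit _)
  suffices IsIso φ from ⟨asIso φ⟩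
  refine Detect.isIso_of_cover φ fun x => ?_
  obtain ⟨V, hV, y, hy⟩ := exists_chart Y x
  refine ⟨_, chart 1 hV.fromSpec, inferInstance, y, hy, ?_⟩
  have := Dcoh.DerSch.hasRpush (CohB1.ProjSpace.toSpec 1 Γ(Y, V))
  obtain ⟨e0⟩ := PushO.nonempty_base Y hV
  have h1 := Univ.restrict π (isPullback_chart 1 hV.fromSpec) hOq 0 hO h
  have eO : (restrictD hV.fromSpec).obj (DCoh.inD Y (Coh.structureModule Y)) ≅
      DCoh.inD (Spec Γ(Y, V)) (Coh.structureModule _) :=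
    restrictInD _ _ ≪≫ (DerivedCategory.singleFunctor _ 0).mapIso (Dcoh.Restrict.restrictUnit _)
  obtain ⟨τ', h2⟩ := h1.of_iso_right eO
  obtain ⟨e⟩ := (univ_chart Γ(Y, V)).unique ⟨τ', h2⟩
  let e' : (restrictD (chart 1 hV.fromSpec)).obj N ≅ (restrictD (chart 1 hV.fromSpec)).obj L :=
    shiftTwistChart Y hV (-2) 1 ≪≫ e
  let q : (DCoh.Rpush (CohB1.ProjSpace.toSpec 1 Γ(Y, V))).obj
      ((restrictD (chart 1 hV.fromSpec)).obj N) ≅
        DCoh.inD (Spec Γ(Y, V)) (Coh.structureModule _) :=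
    (e0.app N).symm ≪≫ (restrictD hV.fromSpec).mapIso tr ≪≫ eO
  refine AbsIso.isIso_of_retraction (DCoh.Rpush (CohB1.ProjSpace.toSpec 1 Γ(Y, V))) e' τ'
    (h2.bij _ (PerfA.QCohD.isQCohD_restrictD _ hNq)) q
    (AbsIso.end_comm_of_iso q.symm Detect.end_inD_comm)
    ((restrictD (chart 1 hV.fromSpec)).map φ)
    (e0.inv.app L ≫ (restrictD hV.fromSpec).map (τ ≫ tr.inv) ≫ e0.hom.app N) ?_
  have h3 := e0.inv.naturality φ
  dsimp only [Functor.comp_map] at h3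
  rw [← Category.assoc, h3, Category.assoc, ← Category.assoc ((restrictD hV.fromSpec).map _),
    ← Functor.map_comp, ← Category.assoc ((DCoh.Rpush π).map φ), hφ, tr.hom_inv_id,
    CategoryTheory.Functor.map_id, Category.id_comp]
  exact e0.inv_hom_id_app N

/-- `(O(-2)[1])|_{𝔸^1} ≅ O[1]`. -/
theorem nonempty_restrict_iso {K : DCoh.D (CohB1.ProjSpaceOver 1 Y)}
    (e : K ≅ (DCoh.inD _ (Twist.twistOver 1 Y (-2)))⟦(1 : ℤ)⟧) :
    Nonempty ((DCoh.restrictD (P1Geo.comp Y).j).obj K ≅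
      (DCoh.inD (AffineSpace (ULift.{u} (Fin 1)) Y) (Coh.structureModule _))⟦(1 : ℤ)⟧) := by
  obtain ⟨e1⟩ := P1Geo.nonempty_restrict_neg_two Y
  let j := Sga4B.P1Geom.v Y 0
  exact ⟨(restrictD j).mapIso e ≪≫ ((restrictD j).commShiftIso (1 : ℤ)).app _ ≪≫
    (shiftFunctor (DCoh.D _) (1 : ℤ)).mapIso (restrictInD _ _ ≪≫
      (DerivedCategory.singleFunctor _ 0).mapIso (e1 ≪≫ Dcoh.Restrict.restrictUnit j))⟩

end Groth.Agent.Dual.H311.P1Dual
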