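import Groth.Agent.LoccohB.ProjDual
import Groth.Agent.Dual.H311.Detect
import Groth.Agent.Dual.H311.P1Geo
import Groth.Agent.Sga67.PushTwistD
import Groth.Agent.PerfC.RpushSingle
import Groth.Agent.S0998
import Groth.Agent.Ega3B.ProjProper
import Groth.Agent.Dcoh.LocalFree

/-!
# `Rπ_* O(-1) = 0` and `Rπ_* O = O` for `π : P^1_Y ⟶ Y`, `Y` any scheme
-/

set_option autoImplicit false

universe u

open CategoryTheory CategoryTheory.Limits AlgebraicGeometry

attribute [local instance] HasDerivedCategory.standard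

namespace Groth.Agent.Dual.H311.PushO

open Groth.Agent.Ega3A.PChart Groth.Agent.Dual.H311.Detect
open Groth.Agent.PerfA.PerfLocal (restrictInD)
open Groth.Agent.PerfA.Restrict (restrictD)

variable (Y : Scheme.{u})

/-- The projection `P^1_Y ⟶ Y`. -/
local notation "π" => CohB1.ProjSpaceOver.toBase 1 Y

/-- Direct images on the charts of the base. -/
theorem nonempty_base [DCoh.HasRpush π] {V : Y.Opens} (hV : IsAffineOpen V)
    [DCoh.HasRpush (CohB1.ProjSpace.toSpec 1 Γ(Y, V))] :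
    Nonempty (DCoh.Rpush π ⋙ restrictD hV.fromSpec ≅
      restrictD (chart 1 hV.fromSpec) ⋙ DCoh.Rpush (CohB1.ProjSpace.toSpec 1 Γ(Y, V))) :=
  Dcoh.DerSch.exists_rpushRestrictIso _ _ _ _ (isPullback_chart 1 hV.fromSpec)

/-- Quasi-coherence of the cohomology of direct images from `P^1_A`. -/
theorem isQCohD_Rpush_toSpec (A : Type u) [CommRing A] [DCoh.HasRpush (CohB1.ProjSpace.toSpec 1 A)]
    (K : DCoh.D (CohB1.ProjSpace 1 A)) (hK : DCoh.IsQCohD K) :
    DCoh.IsQCohD ((DCoh.Rpush (CohB1.ProjSpace.toSpec 1 A)).obj K) := by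
  have : IsProper (CohB1.ProjSpace.toSpec 1 A) := Ega3B.ProjProper.isProper_toSpec 1 A
  exact S0998.result _ K hK

/-- `O(d)` on a chart. -/
noncomputable def twistChart {V : Y.Opens} (hV : IsAffineOpen V) (d : ℤ) :
    (restrictD (chart 1 hV.fromSpec)).obj (DCoh.inD _ (Twist.twistOver 1 Y d)) ≅
      DCoh.inD (CohB1.ProjSpace 1 Γ(Y, V)) (Twist.twistProjSpace 1 Γ(Y, V) d) :=
  restrictInD _ _ ≪≫ (DerivedCategory.singleFunctor _ 0).mapIso (restrictTwistIso 1 hV.fromSpec d)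

/-- The direct image of `O(-1)` on a chart vanishes. -/
theorem isZero_chart (A : Type u) [CommRing A] [DCoh.HasRpush (CohB1.ProjSpace.toSpec 1 A)] :
    IsZero ((DCoh.Rpush (CohB1.ProjSpace.toSpec 1 A)).obj
      (DCoh.inD (CohB1.ProjSpace 1 A) (Twist.twistProjSpace 1 A (-1)))) := by
  have hq : DCoh.IsQCohD (DCoh.inD (CohB1.ProjSpace 1 A)
      (Twist.twistProjSpace 1 A (-((1 : ℕ) : ℤ)))) :=
    PerfA.QCohD.isQCohD_inD _ (PerfB.TwistDer.isQCoh_tw 1 A _)
  have h1 := LoccohB.ProjDual.isZero_Rpush_tw 1 A 1 le_rfl le_rfl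
    (isQCohD_Rpush_toSpec _ _ hq)
  rw [show (-((1 : ℕ) : ℤ)) = -1 from rfl] at h1
  exact h1

/-- `Rπ_* O(-1) = 0`. -/
theorem isZero_Rpush_neg_one [DCoh.HasRpush π] :
    IsZero ((DCoh.Rpush π).obj (DCoh.inD _ (Twist.twistOver 1 Y (-1)))) := by
  refine isZero_of_cover _ fun y => ?_
  obtain ⟨V, hV, z, hz⟩ := exists_affine y
  refine ⟨_, hV.fromSpec, inferInstance, z, hz, ?_⟩
  have := Dcoh.DerSch.hasRpush (CohB1.ProjSpace.toSpec 1 Γ(Y, V))
  obtain ⟨e⟩ := nonempty_base Y hV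
  have e1 := e.app (DCoh.inD _ (Twist.twistOver 1 Y (-1)))
  have e2 := (DCoh.Rpush (CohB1.ProjSpace.toSpec 1 Γ(Y, V))).mapIso (twistChart Y hV (-1))
  have h1 := isZero_chart Γ(Y, V)
  have h2 := h1.of_iso e2
  exact h2.of_iso e1

/-- `π_* O = O`. -/
theorem nonempty_push_structureModule :
    Nonempty ((Scheme.Modules.pushforward π).obj (Coh.structureModule (CohB1.ProjSpaceOver 1 Y)) ≅
      Coh.structureModule Y) := by
  have h1 : FlatMod.IsFinLocFree (Coh.structureModule Y) :=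
    Dcoh.LocalFree.isFinLocFree_structureModule
  have := Sga67.PushTwist.isIso_unit_toBase 1 Y h1
  exact ⟨(Scheme.Modules.pushforward π).mapIso (PerfC.PullRestrict.pullbackUnit π).symm ≪≫
    (asIso ((Scheme.Modules.pullbackPushforwardAdjunction π).unit.app (Coh.structureModule Y))).symm⟩

/-- `Rπ_* O = O` on a chart. -/
theorem nonempty_chart_structureModule (A : Type u) [CommRing A]
    [DCoh.HasRpush (CohB1.ProjSpace.toSpec 1 A)] :
    Nonempty ((DCoh.Rpush (CohB1.ProjSpace.toSpec 1 A)).obj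
      (DCoh.inD (CohB1.ProjSpace 1 A) (Coh.structureModule (CohB1.ProjSpace 1 A))) ≅
        DCoh.inD (Spec (CommRingCat.of A)) (Coh.structureModule (Spec (CommRingCat.of A)))) := by
  have hq : DCoh.IsQCohD (DCoh.inD (CohB1.ProjSpace 1 A)
      (Coh.structureModule (CohB1.ProjSpace 1 A))) :=
    PerfA.QCohD.isQCohD_inD _ (PerfA.QCohSerre.isQCoh_unit _)
  have h3 := LoccohB.ProjDual.isIso_unit 1 A (isQCohD_Rpush_toSpec _ _ hq)
  exact ⟨(DCoh.Rpush _).mapIso (LoccohB.ProjDual.unitAdj 1 A).e.symm ≪≫ (@asIso _ _ _ _ _ h3).symm⟩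

/-- The structure sheaf on an open. -/
noncomputable def structChart {U X : Scheme.{u}} (j : U ⟶ X) [IsOpenImmersion j] :
    (restrictD j).obj (DCoh.inD X (Coh.structureModule X)) ≅
      DCoh.inD U (Coh.structureModule U) :=
  restrictInD _ _ ≪≫ (DerivedCategory.singleFunctor _ 0).mapIso (Dcoh.Restrict.restrictUnit _)

/-- `Rπ_* O` is in degrees `≤ 0`. -/
theorem isLE_Rpush_structureModule [DCoh.HasRpush π] :
    ((DCoh.Rpush π).obj
      (DCoh.inD _ (Coh.structureModule (CohB1.ProjSpaceOver 1 Y)))).IsLE 0 := by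
  refine isLE_of_cover _ 0 fun y => ?_
  obtain ⟨V, hV, z, hz⟩ := exists_affine y
  refine ⟨_, hV.fromSpec, inferInstance, z, hz, ?_⟩
  have := Dcoh.DerSch.hasRpush (CohB1.ProjSpace.toSpec 1 Γ(Y, V))
  obtain ⟨e⟩ := nonempty_base Y hV
  obtain ⟨e1⟩ := nonempty_chart_structureModule Γ(Y, V)
  have e2 := e.app (DCoh.inD _ (Coh.structureModule (CohB1.ProjSpaceOver 1 Y)))
  have e3 := (DCoh.Rpush (CohB1.ProjSpace.toSpec 1 Γ(Y, V))).mapIso
    (structChart (chart 1 hV.fromSpec))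
  have e4 := e2 ≪≫ e3 ≪≫ e1
  have h0 : (DCoh.inD (Spec Γ(Y, V)) (Coh.structureModule (Spec Γ(Y, V)))).IsLE 0 := inferInstance
  exact (DerivedCategory.TStructure.t (C := (Spec Γ(Y, V)).Modules)).isLE_of_iso e4.symm 0

/-- `H^0(Rπ_* O) = O`. -/
theorem nonempty_HD_Rpush_structureModule [DCoh.HasRpush π] :
    Nonempty (DCoh.HD ((DCoh.Rpush π).obj
      (DCoh.inD _ (Coh.structureModule (CohB1.ProjSpaceOver 1 Y)))) 0 ≅ Coh.structureModule Y) := by
  have := Dcoh.DerSch.hasInjectiveResolutions (CohB1.ProjSpaceOver 1 Y)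
  have := Dcoh.DerSch.enoughInjectives (CohB1.ProjSpaceOver 1 Y)
  obtain ⟨e0⟩ := nonempty_push_structureModule Y
  have e1 := PerfC.RpushSingle.iso π 0 (Coh.structureModule (CohB1.ProjSpaceOver 1 Y))
  have e2 := (Scheme.Modules.pushforward π).rightDerivedZeroIsoSelf.app
    (Coh.structureModule (CohB1.ProjSpaceOver 1 Y))
  exact ⟨e1 ≪≫ e2 ≪≫ e0⟩

/-- `Rπ_* O = O`. -/
theorem nonempty_Rpush_structureModule [DCoh.HasRpush π] :
    Nonempty ((DCoh.Rpush π).obj (DCoh.inD _ (Coh.structureModule (CohB1.ProjSpaceOver 1 Y))) ≅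
      DCoh.inD Y (Coh.structureModule Y)) := by
  have h1 : ((DCoh.Rpush π).obj
      (DCoh.inD _ (Coh.structureModule (CohB1.ProjSpaceOver 1 Y)))).IsGE 0 :=
    PerfC.RpushTrunc.isGE_Rpush _ _ 0
  have h2 := isLE_Rpush_structureModule Y
  obtain ⟨e0⟩ := nonempty_HD_Rpush_structureModule Y
  obtain ⟨M, ⟨e⟩⟩ := DerivedCategory.exists_iso_singleFunctor_obj_of_isGE_of_isLE
    ((DCoh.Rpush π).obj (DCoh.inD _ (Coh.structureModule (CohB1.ProjSpaceOver 1 Y)))) 0
  have e1 := ((DerivedCategory.singleFunctorCompHomologyFunctorIso Y.Modules 0).app M).symm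
  have e2 := (DerivedCategory.homologyFunctor Y.Modules 0).mapIso e.symm
  have e3 : M ≅ Coh.structureModule Y := e1 ≪≫ e2 ≪≫ e0
  exact ⟨e ≪≫ (DerivedCategory.singleFunctor Y.Modules 0).mapIso e3⟩

end Groth.Agent.Dual.H311.PushO
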