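import Groth.Agent.Dual.H311.PushO
import Groth.Agent.Dual.H311.SES
import Groth.Agent.Sga67.ProjKoszul
import Groth.Agent.LoccohB.RpushTri

/-!
# The trace isomorphism `Rπ_* (O(-2)[1]) ≅ O_Y` for `π : P^1_Y ⟶ Y`, `Y` any scheme
-/

set_option autoImplicit false

universe u

open CategoryTheory CategoryTheory.Limits AlgebraicGeometry

attribute [local instance] HasDerivedCategory.standard

namespace Groth.Agent.Dual.H311.Trace

open Groth.Agent.Sga67.ProjKoszul Groth.Agent.Sga67.TwistOver Groth.Agent.PerfB.KoszulMod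

variable (Y : Scheme.{u})

/-- The projection `P^1_Y ⟶ Y`. -/
local notation "π" => CohB1.ProjSpaceOver.toBase 1 Y

/-- `O(i) ⊗ O(-2) ≅ O(i - 2)`. -/
theorem nonempty_term (i j : ℤ) (h : i - 2 = j) :
    Nonempty (CohB1.tensorMod (Twist.twistOver 1 Y i) (Twist.twistOver 1 Y (-2)) ≅
      Twist.twistOver 1 Y j) := by
  subst h
  exact nonempty_twistOver_mul 1 Y i (-2)

noncomputable instance unique_Idx_zero : Unique (Idx (1 + 1) 0) where
  default := ⟨∅, by simp⟩
  uniq S := by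
    have h := S.2
    refine Subtype.ext ?_
    have h2 : S.1.card = 0 := by exact_mod_cast h
    exact Finset.card_eq_zero.1 h2

noncomputable instance unique_Idx_two : Unique (Idx (1 + 1) 2) where
  default := ⟨Finset.univ, by simp⟩
  uniq S := by
    have h := S.2
    refine Subtype.ext ?_
    have h2 : S.1.card = 2 := by exact_mod_cast h
    exact Finset.eq_univ_of_card _ (by simpa using h2)

theorem isZero_X (E : (CohB1.ProjSpaceOver 1 Y).Modules) (i : ℤ) (hi : i < 0 ∨ 2 < i) :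
    IsZero ((cx 1 Y E).X i) := by
  have := isEmpty_Idx (1 + 1) i (by simpa using hi)
  rw [IsZero.iff_id_eq_zero]
  exact biproduct.hom_ext _ _ fun j => (this.false j).elim

/-- The trace isomorphism. -/
theorem nonempty_trace [DCoh.HasRpush π] :
    Nonempty ((DCoh.Rpush π).obj ((DCoh.inD _ (Twist.twistOver 1 Y (-2)))⟦(1 : ℤ)⟧) ≅
      DCoh.inD Y (Coh.structureModule Y)) := by
  obtain ⟨_, _, -⟩ := LoccohB.RpushTri.exists_isTriangulated_Rpush π
  obtain ⟨e0⟩ := nonempty_term Y 0 (-2) (by norm_num)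
  obtain ⟨e1⟩ := nonempty_term Y 1 (-1) (by norm_num)
  obtain ⟨e2⟩ := nonempty_term Y 2 0 (by norm_num)
  obtain ⟨e3⟩ := nonempty_twistOver_zero 1 Y
  obtain ⟨e4⟩ := PushO.nonempty_Rpush_structureModule Y
  obtain ⟨w, hS⟩ := SES.exists_shortExact (cx 1 Y (Twist.twistOver 1 Y (-2)))
    (cx_exactAt 1 Y _) (isZero_X Y _ _ (by norm_num)) (isZero_X Y _ _ (by norm_num))
  have hB : IsZero ((DCoh.Rpush π).obj ((DerivedCategory.singleFunctor _ 0).obj
      ((cx 1 Y (Twist.twistOver 1 Y (-2))).X 1))) := by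
    refine SES.isZero_map_biproduct (DerivedCategory.singleFunctor _ 0 ⋙ DCoh.Rpush π)
      (fun _ : Idx (1 + 1) 1 =>
        CohB1.tensorMod (Twist.twistOver 1 Y 1) (Twist.twistOver 1 Y (-2))) fun _ => ?_
    exact (PushO.isZero_Rpush_neg_one Y).of_iso
      ((DerivedCategory.singleFunctor _ 0 ⋙ DCoh.Rpush π).mapIso e1)
  obtain ⟨e⟩ := SES.nonempty_iso (DCoh.Rpush π) hS hB
  let eA : (cx 1 Y (Twist.twistOver 1 Y (-2))).X 0 ≅ Twist.twistOver 1 Y (-2) :=
    biproductUniqueIso (fun _ : Idx (1 + 1) 0 =>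
      CohB1.tensorMod (Twist.twistOver 1 Y 0) (Twist.twistOver 1 Y (-2))) ≪≫ e0
  let eC : (cx 1 Y (Twist.twistOver 1 Y (-2))).X 2 ≅ Coh.structureModule _ :=
    biproductUniqueIso (fun _ : Idx (1 + 1) 2 =>
      CohB1.tensorMod (Twist.twistOver 1 Y 2) (Twist.twistOver 1 Y (-2))) ≪≫ e2 ≪≫ e3
  exact ⟨(DCoh.Rpush π).mapIso ((shiftFunctor (DCoh.D _) (1 : ℤ)).mapIso
      ((DerivedCategory.singleFunctor _ 0).mapIso eA.symm)) ≪≫ e ≪≫
    (DCoh.Rpush π).mapIso ((DerivedCategory.singleFunctor _ 0).mapIso eC) ≪≫ e4⟩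

end Groth.Agent.Dual.H311.Trace
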